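import Cfsg.Agent.GlauberCorr.Subgroups
import Cfsg.Agent.Char.Real

/-!
# Real invariant characters and real invariant classes
-/

set_option autoImplicit false
set_option linter.style.haveILetI false

open scoped ComplexConjugate

namespace Cfsg.Agent.GlauberCorr

open Cfsg.Agent.Char

universe u v

variable {K : Type u} [Group K] [Finite K] {A : Type v} [Group A] {p : ℕ} [hp : Fact p.Prime]

theorem homMult_conjIrr {H : Type u} [Group H] [Finite H] (f : H →* K) (χ : IrrCharacter K)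
    (ξ : IrrCharacter H) : homMult f (conjIrr χ) (conjIrr ξ) = homMult f χ ξ := by
  letI := Fintype.ofFinite H
  refine homMult_eq_of_classInner ?_
  have h := congrArg conj (classInner_comp_eq_homMult f χ ξ)
  rw [map_natCast] at h
  rw [← h]
  unfold classInner
  simp [map_sum, conjIrr_apply]

/-- A conjugacy class fixed by the `p`-group contains a fixed element. -/
theorem exists_fixed_isConj (φ : A →* MulAut K) (hA : IsPGroup p A)
    (hK : ¬ p ∣ Nat.card K) (C : Subgroup K) (hC : ∀ k, k ∈ C ↔ ∀ a, φ a k = k) (k : K)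
    (hk : ∀ a, IsConj (φ a k) k) : ∃ c : C, IsConj k c := by
  classical
  letI := Fintype.ofFinite K
  letI := Fintype.ofFinite C
  haveI : NeZero p := ⟨hp.out.ne_zero⟩
  let f : K → ℂ := fun x => if IsConj k x then 1 else 0
  have hf : ∀ a x, f (φ a x) = f x := by
    intro a x
    refine if_congr ?_ rfl rfl
    constructor
    · intro h
      have := ((hk a).trans h)
      simpa using (φ a).symm.toMonoidHom.map_isConj this
    · intro h
      exact (hk a).symm.trans ((φ a).toMonoidHom.map_isConj h)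
  have hsum := sum_congr_sum_fixedSubgroup φ hA C hC f
    (fun x => by simp only [f]; split_ifs <;> [exact isIntegral_one; exact isIntegral_zero]) hf
  by_contra hne
  push Not at hne
  rw [show (∑ x : C, f x) = 0 from Finset.sum_eq_zero fun x _ => if_neg (hne x)] at hsum
  simp only [f, Finset.sum_boole] at hsum
  refine hK ((Congr.nat_dvd hsum).trans ?_)
  refine Dvd.intro (Nat.card (Subgroup.centralizer ({k} : Set K))) ?_
  convert card_isConj_mul_card_centralizer k

/-- Invariant real characters correspond to real characters of the fixed subgroup. -/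
theorem card_real_inv_irr (φ : A →* MulAut K) (hA : IsPGroup p A) (hK : ¬ p ∣ Nat.card K)
    (C : Subgroup K) (hC : ∀ k, k ∈ C ↔ ∀ a, φ a k = k) :
    Nat.card {χ : IrrCharacter K // (∀ k, ((χ : K → ℂ) k).im = 0) ∧ InvFun φ (χ : K → ℂ)} =
      Nat.card {ξ : IrrCharacter C // ∀ c, ((ξ : C → ℂ) c).im = 0} := by
  have M := matching_fixed φ hA hK C hC
  have hinv : ∀ χ : IrrCharacter K, InvFun φ (χ : K → ℂ) → InvFun φ (conjIrr χ : K → ℂ) :=
    fun χ h a k => by rw [conjIrr_apply, conjIrr_apply, h a k]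
  have hconj : ∀ χ ξ, resMult C (conjIrr χ) (conjIrr ξ) = resMult C χ ξ := fun χ ξ => by
    rw [resMult_eq_homMult, resMult_eq_homMult, homMult_conjIrr]
  have hex : ∀ χ : {χ : IrrCharacter K // (∀ k, ((χ : K → ℂ) k).im = 0) ∧ InvFun φ (χ : K → ℂ)},
      ∃ ξ : {ξ : IrrCharacter C // ∀ c, ((ξ : C → ℂ) c).im = 0}, ¬ p ∣ resMult C χ.1 ξ.1 := by
    intro χ
    obtain ⟨ξ, -, hξ⟩ := M.exists_left χ.1 χ.2.2
    refine ⟨⟨ξ, (conjIrr_eq_self_iff ξ).mp (M.unique_right χ.1 _ _ χ.2.2 trivial trivial ?_ hξ)⟩, hξ⟩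
    rw [← (conjIrr_eq_self_iff χ.1).mpr χ.2.1, hconj]
    exact hξ
  choose f hf using hex
  refine Nat.card_eq_of_bijective f ⟨fun χ χ' he => ?_, fun ξ => ?_⟩
  · refine Subtype.ext (M.unique_left χ.1 χ'.1 (f χ).1 χ.2.2 χ'.2.2 trivial (hf χ) ?_)
    rw [he]; exact hf χ'
  · obtain ⟨χ, hχ, hm⟩ := M.exists_right ξ.1 trivial
    have hreal : ∀ k, ((χ : K → ℂ) k).im = 0 := (conjIrr_eq_self_iff χ).mp
      (M.unique_left _ χ ξ.1 (hinv χ hχ) hχ trivial (by
        rw [← (conjIrr_eq_self_iff ξ.1).mpr ξ.2, hconj]; exact hm) hm)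
    exact ⟨⟨χ, hreal, hχ⟩, Subtype.ext
      (M.unique_right χ (f ⟨χ, hreal, hχ⟩).1 ξ.1 hχ trivial trivial (hf ⟨χ, hreal, hχ⟩) hm)⟩

/-- Invariant real classes correspond to real classes of the fixed subgroup. -/
theorem card_real_inv_classes (φ : A →* MulAut K) (hA : IsPGroup p A) (hK : ¬ p ∣ Nat.card K)
    (C : Subgroup K) (hC : ∀ k, k ∈ C ↔ ∀ a, φ a k = k) :
    Nat.card {c : ConjClasses K // (∀ k : K, ConjClasses.mk k = c → IsConj k k⁻¹) ∧
        ∀ k : K, ConjClasses.mk k = c → ∀ a, ConjClasses.mk (φ a k) = c} =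
      Nat.card {d : ConjClasses C // ∀ x : C, ConjClasses.mk x = d → IsConj x x⁻¹} := by
  refine (Nat.card_eq_of_bijective
    (fun d : {d : ConjClasses C // ∀ x : C, ConjClasses.mk x = d → IsConj x x⁻¹} =>
      (⟨ConjClasses.map C.subtype d.1, ?_, ?_⟩ :
        {c : ConjClasses K // (∀ k : K, ConjClasses.mk k = c → IsConj k k⁻¹) ∧
          ∀ k : K, ConjClasses.mk k = c → ∀ a, ConjClasses.mk (φ a k) = c})) ⟨?_, ?_⟩).symm
  · obtain ⟨d, hd⟩ := d
    obtain ⟨x, rfl⟩ := ConjClasses.exists_rep d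
    intro k hk
    have h1 : IsConj k (x : K) := ConjClasses.mk_eq_mk_iff_isConj.mp hk
    have h2 : IsConj (x : K) (x : K)⁻¹ := C.subtype.map_isConj (hd x rfl)
    refine (h1.trans h2).trans ?_
    obtain ⟨y, hy⟩ := isConj_iff.mp h1
    exact (isConj_iff.mpr ⟨y, by rw [← hy]; group⟩ : IsConj k⁻¹ (x : K)⁻¹).symm
  · obtain ⟨d, hd⟩ := d
    obtain ⟨x, rfl⟩ := ConjClasses.exists_rep d
    intro k hk a
    have h1 : IsConj k (x : K) := ConjClasses.mk_eq_mk_iff_isConj.mp hk
    refine ConjClasses.mk_eq_mk_iff_isConj.mpr ?_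
    have h2 := (φ a).toMonoidHom.map_isConj h1
    rwa [MulEquiv.coe_toMonoidHom, (hC _).mp x.2 a] at h2
  · rintro ⟨d, hd⟩ ⟨d', hd'⟩ he
    obtain ⟨x, rfl⟩ := ConjClasses.exists_rep d
    obtain ⟨y, rfl⟩ := ConjClasses.exists_rep d'
    exact Subtype.ext (ConjClasses.mk_eq_mk_iff_isConj.mpr (isConj_of_isConj_fixed φ hA hK C hC x y
      (ConjClasses.mk_eq_mk_iff_isConj.mp (congrArg Subtype.val he))))
  · rintro ⟨c, hr, hf⟩
    obtain ⟨k, rfl⟩ := ConjClasses.exists_rep c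
    obtain ⟨x, hx⟩ := exists_fixed_isConj φ hA hK C hC k
      fun a => ConjClasses.mk_eq_mk_iff_isConj.mp (hf k rfl a)
    refine ⟨⟨ConjClasses.mk x, fun y hy => ?_⟩, Subtype.ext (ConjClasses.mk_eq_mk_iff_isConj.mpr hx.symm)⟩
    have h1 : IsConj (y : K) (x : K) := C.subtype.map_isConj (ConjClasses.mk_eq_mk_iff_isConj.mp hy)
    refine isConj_of_isConj_fixed φ hA hK C hC y y⁻¹ ?_
    exact hr (y : K) (ConjClasses.mk_eq_mk_iff_isConj.mpr (h1.trans hx.symm))

/-- Counting of real invariant characters, and a consequence. -/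
theorem real_inv_count (φ : A →* MulAut K) (hA : IsPGroup p A) (hK : ¬ p ∣ Nat.card K) :
    Nat.card {χ : IrrCharacter K // (∀ k, ((χ : K → ℂ) k).im = 0) ∧ InvFun φ (χ : K → ℂ)} =
      Nat.card {c : ConjClasses K // (∀ k : K, ConjClasses.mk k = c → IsConj k k⁻¹) ∧
        ∀ k : K, ConjClasses.mk k = c → ∀ a, ConjClasses.mk (φ a k) = c} ∧
    ((∀ χ : IrrCharacter K, (∀ k, ((χ : K → ℂ) k).im = 0) → InvFun φ (χ : K → ℂ)) →
      ∀ k : K, IsConj k k⁻¹ → ∃ k', IsConj k k' ∧ ∀ a, φ a k' = k') := by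
  classical
  let C : Subgroup K :=
    { carrier := {x | ∀ a, φ a x = x}
      one_mem' := fun a => map_one _
      mul_mem' := fun {x y} hx hy a => by rw [map_mul, hx a, hy a]
      inv_mem' := fun {x} hx a => by rw [map_inv, hx a] }
  have hC : ∀ k, k ∈ C ↔ ∀ a, φ a k = k := fun _ => Iff.rfl
  have h1 := card_real_inv_irr φ hA hK C hC
  have h2 := card_real_inv_classes φ hA hK C hC
  have h3 := h1.trans ((card_real_irr_eq_card_real_classes (G := C)).trans h2.symm)
  refine ⟨h3, fun hall k hk => ?_⟩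
  have h4 : Nat.card {χ : IrrCharacter K // (∀ k, ((χ : K → ℂ) k).im = 0) ∧ InvFun φ (χ : K → ℂ)} =
      Nat.card {χ : IrrCharacter K // ∀ k, ((χ : K → ℂ) k).im = 0} :=
    Nat.card_congr (Equiv.subtypeEquivRight fun χ => ⟨And.left, fun h => ⟨h, hall χ h⟩⟩)
  rw [h3, card_real_irr_eq_card_real_classes (G := K)] at h4
  haveI : Finite (ConjClasses K) := Finite.of_surjective _ ConjClasses.mk_surjective
  let g : {c : ConjClasses K // (∀ x : K, ConjClasses.mk x = c → IsConj x x⁻¹) ∧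
      ∀ x : K, ConjClasses.mk x = c → ∀ a, ConjClasses.mk (φ a x) = c} →
      {c : ConjClasses K // ∀ x : K, ConjClasses.mk x = c → IsConj x x⁻¹} :=
    fun c => ⟨c.1, c.2.1⟩
  have hg : Function.Injective g := fun a b hab => Subtype.ext (congrArg (fun t => t.1) hab)
  have hsurj := ((Nat.bijective_iff_injective_and_card g).mpr ⟨hg, h4⟩).2
  obtain ⟨c, hc⟩ := hsurj ⟨ConjClasses.mk k, fun x hx => by
    have hx' := ConjClasses.mk_eq_mk_iff_isConj.mp hx
    refine (hx'.trans hk).trans ?_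
    obtain ⟨y, hy⟩ := isConj_iff.mp hx'
    exact (isConj_iff.mpr ⟨y, by rw [← hy]; group⟩ : IsConj x⁻¹ k⁻¹).symm⟩
  have hc' : c.1 = ConjClasses.mk k := congrArg (fun t => t.1) hc
  obtain ⟨x, hx⟩ := exists_fixed_isConj φ hA hK C hC k
    fun a => ConjClasses.mk_eq_mk_iff_isConj.mp ((c.2.2 k hc'.symm a).trans hc')
  exact ⟨x, hx, fun a => (hC _).mp x.2 a⟩

end Cfsg.Agent.GlauberCorr
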